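/-
Generic lemmas for the centraliser of an involution of the Held group: bounds for centralisers and
isomorphisms of subgroups from regular permutation tables.
-/
import Cfsg.Agent.Lib.ChevSmall.Transport
import Cfsg.Agent.Lib.ChevSmall.Kit

set_option autoImplicit false

namespace Cfsg.Agent.Lib.KnownSimple.HeCent

open Cfsg.Agent.Lib.ChevSmall

/-- The class equation relative to a subgroup `K`. -/
theorem card_mul_cent_le {G : Type*} [Group G] [Finite G] (K D : Subgroup G) (t : G) (hDK : D ≤ K)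
    (hD : ∀ d ∈ D, d * t = t * d) (n : ℕ) (h : Fin n → G) (hK : ∀ i, h i ∈ K)
    (hinj : ∀ i j, h i * t * (h i)⁻¹ = h j * t * (h j)⁻¹ → i = j) :
    n * Nat.card D ≤ Nat.card K := by
  have hf : Function.Injective (fun p : Fin n × D => (⟨h p.1 * (p.2 : G), K.mul_mem (hK p.1) (hDK p.2.2)⟩ : K)) := by
    rintro ⟨i, c⟩ ⟨j, d⟩ hij
    have hij' : h i * (c : G) = h j * (d : G) := congrArg Subtype.val hij
    have e1 : ∀ (x : G) (c : D), (x * c) * t * (x * c)⁻¹ = x * t * x⁻¹ := by
      intro x c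
      have h1 : (c : G) * t = t * (c : G) := hD c c.2
      calc (x * c) * t * (x * c)⁻¹ = x * ((c : G) * t) * ((c : G)⁻¹ * x⁻¹) := by group
        _ = x * (t * c) * ((c : G)⁻¹ * x⁻¹) := by rw [h1]
        _ = x * t * x⁻¹ := by group
    have h2 : h i * t * (h i)⁻¹ = h j * t * (h j)⁻¹ := by
      rw [← e1 (h i) c, ← e1 (h j) d, hij']
    have h3 := hinj i j h2
    subst h3
    have h4 := mul_left_cancel hij'
    exact Prod.ext rfl (Subtype.ext h4)
  have := Nat.card_le_card_of_injective _ hf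
  rwa [Nat.card_prod, Nat.card_fin] at this

/-- An orbit bound: the order of `C` is at most the number of possible images of `p` times the order of
a subgroup containing the stabiliser. -/
theorem card_le_orbit {G α : Type*} [Group G] [Finite G] (C D : Subgroup G) (act : G →* Equiv.Perm α) (p : α)
    (S : Finset α) (hS : ∀ c ∈ C, act c p ∈ S) (hD : ∀ c ∈ C, act c p = p → c ∈ D) :
    Nat.card C ≤ S.card * Nat.card D := by
  classical
  have hex : ∀ q : S, ∃ r : G, (∃ c ∈ C, act c p = q) → r ∈ C ∧ act r p = q := by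
    intro q
    by_cases h : ∃ c ∈ C, act c p = q
    · obtain ⟨c, h1, h2⟩ := h
      exact ⟨c, fun _ => ⟨h1, h2⟩⟩
    · exact ⟨1, fun h' => absurd h' h⟩
  choose r hr using hex
  have hmem : ∀ c : C, (r ⟨act c p, hS c c.2⟩)⁻¹ * (c : G) ∈ D := by
    intro c
    obtain ⟨h1, h2⟩ := hr ⟨act c p, hS c c.2⟩ ⟨c, c.2, rfl⟩
    apply hD _ (C.mul_mem (C.inv_mem h1) c.2)
    rw [map_mul, Equiv.Perm.mul_apply, map_inv]
    rw [Equiv.Perm.inv_eq_iff_eq]
    exact h2.symm
  have hf : Function.Injective (fun c : C => ((⟨act c p, hS c c.2⟩ : S), (⟨_, hmem c⟩ : D))) := by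
    intro a b hab
    have h1 := congrArg Prod.fst hab
    have h2 : (r ⟨act a p, hS a a.2⟩)⁻¹ * (a : G) = (r ⟨act b p, hS b b.2⟩)⁻¹ * (b : G) :=
      congrArg (fun x : S × D => ((x.2 : D) : G)) hab
    simp only at h1
    rw [h1] at h2
    exact Subtype.ext (mul_left_cancel h2)
  have := Nat.card_le_card_of_injective _ hf
  rw [Nat.card_prod] at this
  simpa using this

/-- Strict monotonicity from adjacent steps. -/
theorem lt_of_succ {k : ℕ → ℕ} {n : ℕ} (h : ∀ i, i + 1 < n → k i < k (i + 1)) {i j : ℕ} (hij : i < j)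
    (hj : j < n) : k i < k j := by
  induction j with
  | zero => omega
  | succ j ih =>
    rcases Nat.lt_succ_iff_lt_or_eq.1 hij with hlt | rfl
    · exact (ih hlt (by omega)).trans (h j hj)
    · exact h i hj

/-- Injectivity of a key from a sorting permutation. -/
theorem inj_of_ord {k ord ordI : ℕ → ℕ} {n : ℕ} (h1 : ∀ i, i < n → ordI i < n ∧ ord (ordI i) = i)
    (h2 : ∀ i, i + 1 < n → k (ord i) < k (ord (i + 1))) {a b : ℕ} (ha : a < n) (hb : b < n)
    (hab : k a = k b) : a = b := by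
  obtain ⟨a1, a2⟩ := h1 a ha
  obtain ⟨b1, b2⟩ := h1 b hb
  have h3 : ordI a = ordI b := by
    rcases lt_trichotomy (ordI a) (ordI b) with h | h | h
    · have := lt_of_succ (k := fun i => k (ord i)) h2 h b1
      simp only [a2, b2] at this
      omega
    · exact h
    · have := lt_of_succ (k := fun i => k (ord i)) h2 h a1
      simp only [a2, b2] at this
      omega
  rw [← a2, ← b2, h3]

/-- A permutation representation of a subgroup from a table on its generators. -/
theorem exists_table_rep {Γ X : Type*} [Group Γ] (act : Γ →* Equiv.Perm X) {n K : ℕ} (vec : Fin n → X)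
    (inj : Function.Injective vec) (S : Fin K → Γ) (τ : Fin K → Fin n → Fin n)
    (h : ∀ k i, act (S k) (vec i) = vec (τ k i)) :
    ∃ ρ : Subgroup.closure (Set.range S) →* Equiv.Perm (Fin n),
      ∀ k i, ρ ⟨S k, Subgroup.subset_closure ⟨k, rfl⟩⟩ i = τ k i := by
  have hs := stable_closure act vec inj (Set.range S) (by
    rintro _ ⟨k, rfl⟩ i
    exact ⟨_, h k i⟩)
  obtain ⟨ρ, hρ⟩ := exists_perm_rep' (act.comp (Subgroup.closure (Set.range S)).subtype) vec inj
    (fun g i => hs g g.2 i)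
  refine ⟨ρ, fun k i => inj ?_⟩
  rw [← hρ]
  exact h k i

/-- The isomorphism of two subgroups with the same regular permutation tables. -/
theorem iso_of_tables {Γ₁ Γ₂ X₁ X₂ : Type*} [Group Γ₁] [Group Γ₂] [Finite Γ₁] [Finite Γ₂]
    (act₁ : Γ₁ →* Equiv.Perm X₁) (act₂ : Γ₂ →* Equiv.Perm X₂) {n K : ℕ} (hn : 0 < n)
    (vec₁ : Fin n → X₁) (vec₂ : Fin n → X₂) (inj₁ : Function.Injective vec₁) (inj₂ : Function.Injective vec₂)
    (S₁ : Fin K → Γ₁) (S₂ : Fin K → Γ₂) (τ : Fin K → Fin n → Fin n)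
    (ht₁ : ∀ k i, act₁ (S₁ k) (vec₁ i) = vec₁ (τ k i))
    (ht₂ : ∀ k i, act₂ (S₂ k) (vec₂ i) = vec₂ (τ k i))
    (par : Fin n → Fin n) (lt : Fin n → Fin K)
    (htree : ∀ i : Fin n, i.val ≠ 0 → (par i).val < i.val ∧ τ (lt i) (par i) = i)
    (hc₁ : Nat.card (Subgroup.closure (Set.range S₁)) ≤ n)
    (hc₂ : Nat.card (Subgroup.closure (Set.range S₂)) ≤ n) :
    Nonempty (Subgroup.closure (Set.range S₁) ≃* Subgroup.closure (Set.range S₂)) ∧
      n ≤ Nat.card (Subgroup.closure (Set.range S₁)) ∧ n ≤ Nat.card (Subgroup.closure (Set.range S₂)) := by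
  obtain ⟨ρ₁, h₁⟩ := exists_table_rep act₁ vec₁ inj₁ S₁ τ ht₁
  obtain ⟨ρ₂, h₂⟩ := exists_table_rep act₂ vec₂ inj₂ S₂ τ ht₂
  let g : Fin K → Equiv.Perm (Fin n) := fun k => ρ₁ ⟨S₁ k, Subgroup.subset_closure ⟨k, rfl⟩⟩
  let A : Subgroup (Equiv.Perm (Fin n)) := Subgroup.closure (Set.range g)
  have hg : ∀ k, g k = ρ₂ ⟨S₂ k, Subgroup.subset_closure ⟨k, rfl⟩⟩ := fun k => by
    ext1 i
    show ρ₁ _ i = _
    rw [h₁, h₂]
  have hX : A ≤ ρ₁.range := by
    rw [Subgroup.closure_le]
    rintro _ ⟨k, rfl⟩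
    exact ⟨_, rfl⟩
  have hY : A ≤ ρ₂.range := by
    rw [Subgroup.closure_le]
    rintro _ ⟨k, rfl⟩
    exact ⟨_, (hg k).symm⟩
  -- transitivity
  have htr : ∀ i : Fin n, ∃ a ∈ A, a ⟨0, hn⟩ = i := by
    intro i
    induction' hm : i.val using Nat.strong_induction_on with m ih generalizing i
    by_cases h0 : i.val = 0
    · exact ⟨1, A.one_mem, Fin.ext h0.symm⟩
    · obtain ⟨h1, h2⟩ := htree i h0
      obtain ⟨a, ha, h3⟩ := ih (par i).val (by omega) (par i) rfl
      refine ⟨g (lt i) * a, A.mul_mem (Subgroup.subset_closure ⟨_, rfl⟩) ha, ?_⟩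
      rw [Equiv.Perm.mul_apply, h3]
      show ρ₁ _ _ = _
      rw [h₁, h2]
  have hA : n ≤ Nat.card A := by
    choose a ha1 ha2 using htr
    have hf : Function.Injective (fun i : Fin n => (⟨a i, ha1 i⟩ : A)) := by
      intro i j hij
      have := congrArg (fun x : A => (x : Equiv.Perm (Fin n)) ⟨0, hn⟩) hij
      simpa [ha2] using this
    have := Nat.card_le_card_of_injective _ hf
    simpa using this
  have i1 := inj_of_range ρ₁ A hX (hc₁.trans hA)
  have i2 := inj_of_range ρ₂ A hY (hc₂.trans hA)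
  refine ⟨iso_of_common ρ₁ ρ₂ A hX hY (hc₁.trans hA) (hc₂.trans hA), ?_, ?_⟩
  · have h3 : Nat.card (Subgroup.closure (Set.range S₁)) = Nat.card ρ₁.range :=
      Nat.card_congr (MonoidHom.ofInjective i1.1).toEquiv
    rw [h3, i1.2]
    exact hA
  · have h3 : Nat.card (Subgroup.closure (Set.range S₂)) = Nat.card ρ₂.range :=
      Nat.card_congr (MonoidHom.ofInjective i2.1).toEquiv
    rw [h3, i2.2]
    exact hA

/-- Transport of the statement along an isomorphism. -/
theorem transport {A B K : Type*} [Group A] [Group B] [Group K] (e : A ≃* B) (b : B) (hb : orderOf b = 2)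
    (h : Nonempty (↥(Subgroup.centralizer ({b} : Set B)) ≃* K)) :
    ∃ a : A, orderOf a = 2 ∧ Nonempty (↥(Subgroup.centralizer ({a} : Set A)) ≃* K) := by
  obtain ⟨m⟩ := h
  refine ⟨e.symm b, by rw [MulEquiv.orderOf_eq, hb], ⟨?_⟩⟩
  have h1 : (Subgroup.centralizer ({e.symm b} : Set A)).map e.toMonoidHom = Subgroup.centralizer ({b} : Set B) := by
    ext y
    simp only [Subgroup.mem_map, Subgroup.mem_centralizer_iff, Set.mem_singleton_iff, forall_eq]
    constructor
    · rintro ⟨x, hx, rfl⟩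
      have := congrArg e hx
      simpa using this
    · intro hy
      refine ⟨e.symm y, ?_, by simp⟩
      apply e.injective
      simpa using hy
  exact ((e.subgroupMap _).trans (MulEquiv.subgroupCongr h1)).trans m

end Cfsg.Agent.Lib.KnownSimple.HeCent
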