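/-
The centraliser of an involution of the Held group has order at most 21504.
-/
import Cfsg.Agent.Lib.KnownSimple.HeP.Pre
import Cfsg.Agent.Lib.KnownSimple.HeCent.Data
import Cfsg.Agent.Lib.KnownSimple.HeCent.Gen

set_option autoImplicit false
set_option maxRecDepth 100000

namespace Cfsg.Agent.Lib.KnownSimple.HeCent

open Cfsg Cfsg.Spor Cfsg.Agent.Lib.Compute Cfsg.Agent.Lib.KnownSimple.PE Cfsg.Agent.Lib.KnownSimple.Leech
open Cfsg.Agent.Lib.KnownSimple Cfsg.Agent.Lib.KnownSimple.AutRigid Cfsg.Agent.Lib.KnownSimple.Pres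
open Cfsg.Agent.Lib.KnownSimple.HeP
open Cfsg.Agent.Lib.ChevSmall (decodeW)

/-- A table lookup. -/
noncomputable def pc (t i : ℕ) : ℕ := pget 12 4095 t i

/-- The letters of words in the group. -/
noncomputable def gsG : ℕ → G := lgetD 1 [w, u, x₁, w⁻¹, u⁻¹, x₁⁻¹]
/-- The codes of the letters. -/
noncomputable def csG : ℕ → ℕ → ℕ := lgetD (fun i => i) [cw, cu, cx₁, ciw, ciu, cix₁]

theorem code_gsG (a : ℕ) : E.IsCode ((gsG a : G) : Equiv.Perm (Fin N)) (csG a) := by
  match a with
  | 0 => exact code_w
  | 1 => exact code_u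
  | 2 => exact code_x₁
  | 3 => exact codei_w
  | 4 => exact codei_u
  | 5 => exact codei_x₁
  | (a + 6) => exact isCode_one E

/-- The product of a word. -/
noncomputable def wdG (W : List ℕ) : G := (W.map gsG).prod

theorem code_wdG (W : List ℕ) : E.IsCode ((wdG W : G) : Equiv.Perm (Fin N)) (evW csG W) :=
  isCode_ev gsG csG code_gsG W

/-- The code of a word, given by a table. -/
theorem code_tab (W : List ℕ) (t : ℕ) (h : allBelow (fun i => Nat.beq (evW csG W i) (pc t i)) N = true) :
    E.IsCode ((wdG W : G) : Equiv.Perm (Fin N)) (pc t) :=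
  isCode_congr (code_wdG W) fun i hi => Nat.eq_of_beq_eq_true ((allBelow_iff _ _).1 h i hi)

/-- The code of an inverse, given by a table. -/
theorem codei_tab {g : G} {a b : ℕ} (h : E.IsCode ((g : G) : Equiv.Perm (Fin N)) (pc a))
    (h' : allBelow (fun i => Nat.beq (pc b (pc a i)) i) N = true) :
    E.IsCode ((g⁻¹ : G) : Equiv.Perm (Fin N)) (pc b) :=
  isCode_inv h fun i hi => Nat.eq_of_beq_eq_true ((allBelow_iff _ _).1 h' i hi)

/-- Equal group elements have equal codes on points. -/
theorem code_eq_of_eq {a b : G} {f g : ℕ → ℕ} (h1 : E.IsCode (a : Equiv.Perm (Fin N)) f)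
    (h2 : E.IsCode (b : Equiv.Perm (Fin N)) g) (hab : a = b) {i : ℕ} (hi : i < N) : f i = g i := by
  subst hab
  have h3 := h1 (E.pt i)
  have h4 := h2 (E.pt i)
  rw [E.idx_pt i hi] at h3 h4
  rw [h3, h4]

/-! ### The involution -/

/-- The involution. -/
noncomputable def zz : G := wdG Wz

theorem code_zz : E.IsCode ((zz : G) : Equiv.Perm (Fin N)) (pc zT) := code_tab _ _ (by decide +kernel)

theorem zz_sq : zz * zz = 1 :=
  eq_of_chk based2 lt2 (coe_code_mul code_zz code_zz) (isCode_one E) (by decide +kernel)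

theorem zz_ne : zz ≠ 1 := fun h =>
  ne_one_of_code code_zz (i := 0) (by norm_num) (by decide +kernel) (congrArg Subtype.val h)

theorem orderOf_zz : orderOf zz = 2 := by
  have : Fact (Nat.Prime 2) := ⟨Nat.prime_two⟩
  exact orderOf_eq_prime (by rw [pow_two, zz_sq]) zz_ne

theorem zz_fix : ((zz : G) : Equiv.Perm (Fin N)) (E.pt 127) = E.pt 127 :=
  fix_of_code code_zz (by norm_num) (by decide +kernel)

/-! ### Elements of the point stabiliser -/

/-- The stabiliser of the first base point in the group. -/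
noncomputable def K1G : Subgroup G := KK1.subgroupOf H

theorem mem_K1G {g : G} (h : (g : Equiv.Perm (Fin N)) (E.pt 127) = E.pt 127) : g ∈ K1G :=
  Subgroup.mem_subgroupOf.2 (lev0.stab g g.2 h)

theorem size0 : L0.size N = 2058 := by decide +kernel

theorem card_K1G : Nat.card K1G = 1958400 := by
  have h1 : Nat.card K1G = Nat.card KK1 := Nat.card_congr (Subgroup.subgroupOfEquivOfLe lev0.le).toEquiv
  rw [h1, main₀.2.2.card_eq]
  have h := sizes
  rw [Ls, List.map_cons, List.prod_cons, size0] at h
  omega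

/-- A generator of the point stabiliser. -/
noncomputable def k0 : G := wdG kw0
/-- A generator of the point stabiliser. -/
noncomputable def k1 : G := wdG kw1
/-- A generator of the point stabiliser. -/
noncomputable def k2 : G := wdG kw2

theorem code_k0 : E.IsCode ((k0 : G) : Equiv.Perm (Fin N)) (pc kT0) := code_tab _ _ (by decide +kernel)
theorem code_k1 : E.IsCode ((k1 : G) : Equiv.Perm (Fin N)) (pc kT1) := code_tab _ _ (by decide +kernel)
theorem code_k2 : E.IsCode ((k2 : G) : Equiv.Perm (Fin N)) (pc kT2) := code_tab _ _ (by decide +kernel)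
theorem codei_k0 : E.IsCode ((k0⁻¹ : G) : Equiv.Perm (Fin N)) (pc kI0) := codei_tab code_k0 (by decide +kernel)
theorem codei_k1 : E.IsCode ((k1⁻¹ : G) : Equiv.Perm (Fin N)) (pc kI1) := codei_tab code_k1 (by decide +kernel)
theorem codei_k2 : E.IsCode ((k2⁻¹ : G) : Equiv.Perm (Fin N)) (pc kI2) := codei_tab code_k2 (by decide +kernel)

theorem k0_mem : k0 ∈ K1G := mem_K1G (fix_of_code code_k0 (by norm_num) (by decide +kernel))
theorem k1_mem : k1 ∈ K1G := mem_K1G (fix_of_code code_k1 (by norm_num) (by decide +kernel))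
theorem k2_mem : k2 ∈ K1G := mem_K1G (fix_of_code code_k2 (by norm_num) (by decide +kernel))

/-- The letters of words in the point stabiliser. -/
noncomputable def gK : ℕ → G := lgetD 1 [k0, k1, k2, k0⁻¹, k1⁻¹, k2⁻¹]
/-- The codes of the letters. -/
noncomputable def cK : ℕ → ℕ → ℕ := lgetD (fun i => i) [pc kT0, pc kT1, pc kT2, pc kI0, pc kI1, pc kI2]

theorem code_gK (a : ℕ) : E.IsCode ((gK a : G) : Equiv.Perm (Fin N)) (cK a) := by
  match a with
  | 0 => exact code_k0
  | 1 => exact code_k1
  | 2 => exact code_k2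
  | 3 => exact codei_k0
  | 4 => exact codei_k1
  | 5 => exact codei_k2
  | (a + 6) => exact isCode_one E

theorem gK_mem (a : ℕ) : gK a ∈ K1G := by
  match a with
  | 0 => exact k0_mem
  | 1 => exact k1_mem
  | 2 => exact k2_mem
  | 3 => exact K1G.inv_mem k0_mem
  | 4 => exact K1G.inv_mem k1_mem
  | 5 => exact K1G.inv_mem k2_mem
  | (a + 6) => exact K1G.one_mem

/-- The inverse of a letter. -/
def invL : ℕ → ℕ
  | 0 => 3
  | 1 => 4
  | 2 => 5
  | 3 => 0
  | 4 => 1
  | 5 => 2
  | (k + 6) => k + 6

/-- The inverse of a word. -/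
def invW (W : List ℕ) : List ℕ := (W.map invL).reverse

theorem gK_inv (a : ℕ) : gK (invL a) = (gK a)⁻¹ := by
  match a with
  | 0 => rfl
  | 1 => rfl
  | 2 => rfl
  | 3 => exact (inv_inv k0).symm
  | 4 => exact (inv_inv k1).symm
  | 5 => exact (inv_inv k2).symm
  | (k + 6) => exact (inv_one (G := G)).symm

/-- The product of a word in the letters. -/
noncomputable def wK (W : List ℕ) : G := (W.map gK).prod

theorem wK_invW (W : List ℕ) : wK (invW W) = (wK W)⁻¹ := by
  induction W with
  | nil => exact (inv_one (G := G)).symm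
  | cons a W ih =>
    have h1 : invW (a :: W) = invW W ++ [invL a] := by
      simp [invW]
    have h2 : wK (a :: W) = gK a * wK W := by
      simp [wK]
    have h3 : wK (invW W ++ [invL a]) = wK (invW W) * gK (invL a) := by
      simp [wK]
    rw [h1, h3, ih, h2, gK_inv, mul_inv_rev]

theorem wK_mem (W : List ℕ) : wK W ∈ K1G := by
  induction W with
  | nil => exact K1G.one_mem
  | cons a W ih =>
    have h2 : wK (a :: W) = gK a * wK W := by
      simp [wK]
    rw [h2]
    exact K1G.mul_mem (gK_mem a) ih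

theorem code_wK (W : List ℕ) : E.IsCode ((wK W : G) : Equiv.Perm (Fin N)) (evW cK W) :=
  isCode_ev gK cK code_gK W

/-! ### The class of the involution in the point stabiliser -/

/-- A conjugating word. -/
noncomputable def cwD (i : ℕ) : List ℕ := decodeW 7 16 (pget 44 17592186044415 cwT i)

/-- The action of a conjugate of the involution. -/
noncomputable def evC (W : List ℕ) (b : ℕ) : ℕ := evW cK W (pc zT (evW cK (invW W) b))

theorem code_conj (W : List ℕ) :
    E.IsCode ((wK W * zz * (wK W)⁻¹ : G) : Equiv.Perm (Fin N)) (evC W) := by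
  rw [← wK_invW]
  have h := isCode_mul (isCode_mul (code_wK W) code_zz) (code_wK (invW W))
  exact h

/-- The key of a conjugate. -/
noncomputable def keyC (i : ℕ) : ℕ :=
  evC (cwD i) 985 * 4235364 + evC (cwD i) 474 * 2058 + evC (cwD i) 844

theorem keyC_mono : allBelow (fun i => Nat.blt (keyC i) (keyC (i + 1))) 3824 = true := by decide +kernel

theorem keyC_lt {i j : ℕ} (hij : i < j) (hj : j < 3825) : keyC i < keyC j :=
  lt_of_succ (fun i hi => by
    have h := (allBelow_iff _ _).1 keyC_mono i (by omega)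
    exact Nat.le_of_ble_eq_true h) hij hj

theorem card_D_le : Nat.card ↥(Subgroup.centralizer ({zz} : Set G) ⊓ K1G) ≤ 512 := by
  have h := card_mul_cent_le K1G (Subgroup.centralizer ({zz} : Set G) ⊓ K1G) zz inf_le_right
    (fun d hd => (Subgroup.mem_centralizer_iff.1 hd.1 zz rfl).symm) 3825 (fun i => wK (cwD i))
    (fun i => wK_mem _) (by
      intro i j hij
      have h985 := code_eq_of_eq (code_conj (cwD i)) (code_conj (cwD j)) hij (i := 985) (by norm_num)
      have h474 := code_eq_of_eq (code_conj (cwD i)) (code_conj (cwD j)) hij (i := 474) (by norm_num)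
      have h844 := code_eq_of_eq (code_conj (cwD i)) (code_conj (cwD j)) hij (i := 844) (by norm_num)
      have hk : keyC i = keyC j := by
        show evC (cwD i) 985 * 4235364 + evC (cwD i) 474 * 2058 + evC (cwD i) 844 =
          evC (cwD j) 985 * 4235364 + evC (cwD j) 474 * 2058 + evC (cwD j) 844
        rw [h985, h474, h844]
      rcases lt_trichotomy (i : ℕ) j with h1 | h1 | h1
      · exact absurd hk (keyC_lt h1 j.2).ne
      · exact Fin.ext h1
      · exact absurd hk (keyC_lt h1 i.2).ne')
  rw [card_K1G] at h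
  omega

theorem fix_chk : allBelow (fun x => (!Nat.beq (pc zT x) x) || anyBelow (fun i => Nat.beq (pc fixT i) x) 42) N = true := by
  decide +kernel

theorem card_C_le : Nat.card ↥(Subgroup.centralizer ({zz} : Set G)) ≤ 21504 := by
  classical
  have h := card_le_orbit (Subgroup.centralizer ({zz} : Set G)) (Subgroup.centralizer ({zz} : Set G) ⊓ K1G)
    H.subtype (E.pt 127) ((Finset.range 42).image (fun i => E.pt (pc fixT i))) (by
      intro c hc
      have h1 : zz * c = c * zz := Subgroup.mem_centralizer_iff.1 hc zz rfl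
      have h2 : ((zz : G) : Equiv.Perm (Fin N)) ((c : Equiv.Perm (Fin N)) (E.pt 127)) =
          (c : Equiv.Perm (Fin N)) (E.pt 127) := by
        have h3 := congrArg (fun g : G => (g : Equiv.Perm (Fin N)) (E.pt 127)) h1
        simp only [Subgroup.coe_mul, Equiv.Perm.mul_apply] at h3
        rw [h3, zz_fix]
      set y := (c : Equiv.Perm (Fin N)) (E.pt 127) with hy
      have h3 := code_zz y
      rw [h2] at h3
      have h4 := (allBelow_iff _ _).1 fix_chk (E.idx y) (E.idx_lt y)
      rw [h3] at h4
      simp only [Bool.or_eq_true, Bool.not_eq_true'] at h4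
      rcases h4 with h4 | h4
      · have h5 : Nat.beq (E.idx y) (E.idx y) = true := Nat.beq_refl _
        rw [h5] at h4
        exact absurd h4 (by simp)
      · obtain ⟨i, hi, h5⟩ := (anyBelow_iff _ _).1 h4
        refine Finset.mem_image.2 ⟨i, Finset.mem_range.2 hi, ?_⟩
        rw [Nat.eq_of_beq_eq_true h5]
        exact E.pt_idx y) (by
      intro c hc h1
      exact ⟨hc, mem_K1G h1⟩)
  have h2 : ((Finset.range 42).image (fun i => E.pt (pc fixT i))).card ≤ 42 := by
    refine Finset.card_image_le.trans ?_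
    simp
  have h3 := card_D_le
  calc _ ≤ _ := h
    _ ≤ 42 * 512 := Nat.mul_le_mul h2 h3
    _ = 21504 := by norm_num

end Cfsg.Agent.Lib.KnownSimple.HeCent
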