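/-
The centraliser of a transvection in `SL(5, 2)` has order at most 21504.
-/
import Cfsg.Agent.Lib.KnownSimple.HeCent.Data
import Cfsg.Agent.Lib.KnownSimple.HeCent.Gen
import Cfsg.Agent.Lib.Classical.Basic

set_option autoImplicit false
set_option maxRecDepth 100000

namespace Cfsg.Agent.Lib.KnownSimple.HeCent

open Cfsg.Agent.Lib.Compute Cfsg.Agent.Lib.ChevSmall Matrix
open scoped MatrixGroups

/-- A vector from a code. -/
def vecF (y : ℕ) : Fin 5 → ZMod 2 := fun r => ((Nat.mod (Nat.shiftRight y r.val) 2 : ℕ) : ZMod 2)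

theorem vecF_inj' : ∀ a b : Fin 32, vecF a = vecF b → a = b := by decide +kernel

theorem vecF_inj {a b : ℕ} (ha : a < 32) (hb : b < 32) (h : vecF a = vecF b) : a = b :=
  congrArg Fin.val (vecF_inj' ⟨a, ha⟩ ⟨b, hb⟩ h)

/-- The transvection. -/
def matB : Matrix (Fin 5) (Fin 5) (ZMod 2) :=
  !![1, 1, 0, 0, 0; 0, 1, 0, 0, 0; 0, 0, 1, 0, 0; 0, 0, 0, 1, 0; 0, 0, 0, 0, 1]
/-- A cyclic permutation matrix. -/
def matA : Matrix (Fin 5) (Fin 5) (ZMod 2) :=
  !![0, 0, 0, 0, 1; 1, 0, 0, 0, 0; 0, 1, 0, 0, 0; 0, 0, 1, 0, 0; 0, 0, 0, 1, 0]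
/-- Its inverse. -/
def matAi : Matrix (Fin 5) (Fin 5) (ZMod 2) :=
  !![0, 1, 0, 0, 0; 0, 0, 1, 0, 0; 0, 0, 0, 1, 0; 0, 0, 0, 0, 1; 1, 0, 0, 0, 0]

theorem matB_eq : matB = Matrix.transvection 0 1 1 := by decide +kernel

/-- The transvection. -/
def s₀ : SL(5, ZMod 2) := ⟨matB, by decide +kernel⟩
/-- A cyclic permutation matrix. -/
def a₀ : SL(5, ZMod 2) := ⟨matA, by decide +kernel⟩
/-- Its inverse. -/
def a₁ : SL(5, ZMod 2) := ⟨matAi, by decide +kernel⟩

theorem a₀_a₁ : a₀ * a₁ = 1 := Subtype.ext (by decide +kernel)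
theorem s₀_s₀ : s₀ * s₀ = 1 := Subtype.ext (by decide +kernel)

/-- The letters. -/
def sl : ℕ → SL(5, ZMod 2)
  | 0 => a₀
  | 1 => s₀
  | 2 => a₁
  | _ => 1

/-- The tables of the letters. -/
noncomputable def tS : ℕ → ℕ → ℕ
  | 0, y => pget 5 31 sT0 y
  | 1, y => pget 5 31 sT1 y
  | 2, y => pget 5 31 sT2 y
  | _, y => y

theorem pget_lt32 (p i : ℕ) : pget 5 31 p i < 32 :=
  Nat.lt_succ_of_le Nat.and_le_right

theorem tS_lt (a : ℕ) {y : ℕ} (hy : y < 32) : tS a y < 32 := by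
  match a with
  | 0 => exact pget_lt32 _ _
  | 1 => exact pget_lt32 _ _
  | 2 => exact pget_lt32 _ _
  | (a + 3) => exact hy

theorem spec0 : ∀ y : Fin 32, matA *ᵥ vecF y = vecF (tS 0 y) := by decide +kernel
theorem spec1 : ∀ y : Fin 32, matB *ᵥ vecF y = vecF (tS 1 y) := by decide +kernel
theorem spec2 : ∀ y : Fin 32, matAi *ᵥ vecF y = vecF (tS 2 y) := by decide +kernel

theorem sl_spec (a : ℕ) {y : ℕ} (hy : y < 32) :
    (sl a : Matrix (Fin 5) (Fin 5) (ZMod 2)) *ᵥ vecF y = vecF (tS a y) := by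
  match a with
  | 0 => exact spec0 ⟨y, hy⟩
  | 1 => exact spec1 ⟨y, hy⟩
  | 2 => exact spec2 ⟨y, hy⟩
  | (a + 3) =>
    show ((1 : SL(5, ZMod 2)) : Matrix (Fin 5) (Fin 5) (ZMod 2)) *ᵥ vecF y = vecF y
    rw [Matrix.SpecialLinearGroup.coe_one, Matrix.one_mulVec]

/-- The product of a word. -/
def wS (W : List ℕ) : SL(5, ZMod 2) := (W.map sl).prod

theorem wApply_lt (W : List ℕ) {y : ℕ} (hy : y < 32) : wApply tS W y < 32 := by
  induction W with
  | nil => exact hy
  | cons a W ih => exact tS_lt a ih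

theorem wS_spec (W : List ℕ) {y : ℕ} (hy : y < 32) :
    (wS W : Matrix (Fin 5) (Fin 5) (ZMod 2)) *ᵥ vecF y = vecF (wApply tS W y) := by
  induction W with
  | nil =>
    show ((1 : SL(5, ZMod 2)) : Matrix (Fin 5) (Fin 5) (ZMod 2)) *ᵥ vecF y = vecF y
    rw [Matrix.SpecialLinearGroup.coe_one, Matrix.one_mulVec]
  | cons a W ih =>
    have h2 : wS (a :: W) = sl a * wS W := by
      simp [wS]
    rw [h2, Matrix.SpecialLinearGroup.coe_mul, ← Matrix.mulVec_mulVec, ih, wApply_cons]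
    exact sl_spec a (wApply_lt W hy)

/-- The inverse of a letter. -/
def invS : ℕ → ℕ
  | 0 => 2
  | 1 => 1
  | 2 => 0
  | (k + 3) => k + 3

/-- The inverse of a word. -/
def invWS (W : List ℕ) : List ℕ := (W.map invS).reverse

theorem sl_inv (a : ℕ) : sl (invS a) = (sl a)⁻¹ := by
  match a with
  | 0 => exact eq_inv_of_mul_eq_one_right a₀_a₁
  | 1 => exact eq_inv_of_mul_eq_one_left s₀_s₀
  | 2 => exact eq_inv_of_mul_eq_one_left a₀_a₁
  | (k + 3) => exact (inv_one (G := SL(5, ZMod 2))).symm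

theorem wS_inv (W : List ℕ) : wS (invWS W) = (wS W)⁻¹ := by
  induction W with
  | nil => exact (inv_one (G := SL(5, ZMod 2))).symm
  | cons a W ih =>
    have h1 : invWS (a :: W) = invWS W ++ [invS a] := by
      simp [invWS]
    have h2 : wS (a :: W) = sl a * wS W := by
      simp [wS]
    have h3 : wS (invWS W ++ [invS a]) = wS (invWS W) * sl (invS a) := by
      simp [wS]
    rw [h1, h3, ih, h2, sl_inv, _root_.mul_inv_rev]

/-- A conjugating word. -/
noncomputable def cwS (i : ℕ) : List ℕ := decodeW 4 20 (pget 37 137438953471 swT i)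

/-- The action of a conjugate of the transvection. -/
noncomputable def evS (W : List ℕ) (b : ℕ) : ℕ := wApply tS W (tS 1 (wApply tS (invWS W) b))

theorem conj_spec (W : List ℕ) {b : ℕ} (hb : b < 32) :
    ((wS W * s₀ * (wS W)⁻¹ : SL(5, ZMod 2)) : Matrix (Fin 5) (Fin 5) (ZMod 2)) *ᵥ vecF b = vecF (evS W b) := by
  rw [← wS_inv, Matrix.SpecialLinearGroup.coe_mul, Matrix.SpecialLinearGroup.coe_mul, ← Matrix.mulVec_mulVec,
    ← Matrix.mulVec_mulVec, wS_spec _ hb]
  have h1 : (s₀ : Matrix (Fin 5) (Fin 5) (ZMod 2)) *ᵥ vecF (wApply tS (invWS W) b) =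
      vecF (tS 1 (wApply tS (invWS W) b)) := sl_spec 1 (wApply_lt _ hb)
  rw [h1, wS_spec _ (tS_lt 1 (wApply_lt _ hb))]
  rfl

theorem evS_lt (W : List ℕ) {b : ℕ} (hb : b < 32) : evS W b < 32 :=
  wApply_lt W (tS_lt 1 (wApply_lt _ hb))

/-- The key of a conjugate. -/
noncomputable def keyS (i : ℕ) : ℕ :=
  evS (cwS i) 1 + 32 * evS (cwS i) 2 + 1024 * evS (cwS i) 4 + 32768 * evS (cwS i) 8 + 1048576 * evS (cwS i) 16

theorem keyS_mono : allBelow (fun i => Nat.blt (keyS i) (keyS (i + 1))) 464 = true := by decide +kernel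

theorem keyS_lt {i j : ℕ} (hij : i < j) (hj : j < 465) : keyS i < keyS j :=
  lt_of_succ (fun i hi => by
    have h := (allBelow_iff _ _).1 keyS_mono i (by omega)
    exact Nat.le_of_ble_eq_true h) hij hj

theorem evS_eq {W W' : List ℕ} (h : wS W * s₀ * (wS W)⁻¹ = wS W' * s₀ * (wS W')⁻¹) {b : ℕ} (hb : b < 32) :
    evS W b = evS W' b := by
  apply vecF_inj (evS_lt W hb) (evS_lt W' hb)
  rw [← conj_spec W hb, ← conj_spec W' hb, h]

theorem card_SL52 : Nat.card SL(5, ZMod 2) = 9999360 := by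
  have h := Cfsg.Agent.Lib.Classical.card_SL (F := ZMod 2) (q := 2) (ZMod.card 2) 5 (by norm_num)
  have h2 : (∏ i : Fin 5, (2 ^ 5 - 2 ^ (i : ℕ))) = 9999360 := by
    rw [Fin.prod_univ_five]
    norm_num
  rw [h2] at h
  rw [← one_mul (Nat.card SL(5, ZMod 2))]
  exact h

theorem card_CS_le : Nat.card ↥(Subgroup.centralizer ({s₀} : Set SL(5, ZMod 2))) ≤ 21504 := by
  have h := card_mul_cent_le ⊤ (Subgroup.centralizer ({s₀} : Set SL(5, ZMod 2))) s₀ le_top
    (fun d hd => (Subgroup.mem_centralizer_iff.1 hd s₀ rfl).symm) 465 (fun i => wS (cwS i))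
    (fun _ => Subgroup.mem_top _) (by
      intro i j hij
      have hk : keyS i = keyS j := by
        show evS (cwS i) 1 + 32 * evS (cwS i) 2 + 1024 * evS (cwS i) 4 + 32768 * evS (cwS i) 8 +
            1048576 * evS (cwS i) 16 = evS (cwS j) 1 + 32 * evS (cwS j) 2 + 1024 * evS (cwS j) 4 +
            32768 * evS (cwS j) 8 + 1048576 * evS (cwS j) 16
        rw [evS_eq hij (b := 1) (by norm_num), evS_eq hij (b := 2) (by norm_num),
          evS_eq hij (b := 4) (by norm_num), evS_eq hij (b := 8) (by norm_num),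
          evS_eq hij (b := 16) (by norm_num)]
      rcases lt_trichotomy (i : ℕ) j with h1 | h1 | h1
      · exact absurd hk (keyS_lt h1 j.2).ne
      · exact Fin.ext h1
      · exact absurd hk (keyS_lt h1 i.2).ne')
  rw [Subgroup.card_top, card_SL52] at h
  omega

/-! ### The left action on matrices with labels -/

/-- Left multiplication on matrices. -/
noncomputable def leftAct : SL(5, ZMod 2) →* Equiv.Perm (Matrix (Fin 5) (Fin 5) (ZMod 2)) where
  toFun g :=
    { toFun := fun M => (g : Matrix (Fin 5) (Fin 5) (ZMod 2)) * M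
      invFun := fun M => ((g⁻¹ : SL(5, ZMod 2)) : Matrix (Fin 5) (Fin 5) (ZMod 2)) * M
      left_inv := fun M => by
        show ((g⁻¹ : SL(5, ZMod 2)) : Matrix (Fin 5) (Fin 5) (ZMod 2)) * ((g : Matrix (Fin 5) (Fin 5) (ZMod 2)) * M) = M
        rw [← Matrix.mul_assoc, ← Matrix.SpecialLinearGroup.coe_mul, inv_mul_cancel,
          Matrix.SpecialLinearGroup.coe_one, Matrix.one_mul]
      right_inv := fun M => by
        show (g : Matrix (Fin 5) (Fin 5) (ZMod 2)) * (((g⁻¹ : SL(5, ZMod 2)) : Matrix (Fin 5) (Fin 5) (ZMod 2)) * M) = M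
        rw [← Matrix.mul_assoc, ← Matrix.SpecialLinearGroup.coe_mul, mul_inv_cancel,
          Matrix.SpecialLinearGroup.coe_one, Matrix.one_mul] }
  map_one' := by
    ext1 M
    show ((1 : SL(5, ZMod 2)) : Matrix (Fin 5) (Fin 5) (ZMod 2)) * M = M
    rw [Matrix.SpecialLinearGroup.coe_one, Matrix.one_mul]
  map_mul' g h := by
    ext1 M
    show ((g * h : SL(5, ZMod 2)) : Matrix (Fin 5) (Fin 5) (ZMod 2)) * M =
      (g : Matrix (Fin 5) (Fin 5) (ZMod 2)) * ((h : Matrix (Fin 5) (Fin 5) (ZMod 2)) * M)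
    rw [Matrix.SpecialLinearGroup.coe_mul, Matrix.mul_assoc]

theorem leftAct_apply (g : SL(5, ZMod 2)) (M : Matrix (Fin 5) (Fin 5) (ZMod 2)) :
    leftAct g M = (g : Matrix (Fin 5) (Fin 5) (ZMod 2)) * M := rfl

/-- A column of a code. -/
def field (c x : ℕ) : ℕ := Nat.mod (Nat.shiftRight x (Nat.mul 5 c)) 32

theorem field_lt (c x : ℕ) : field c x < 32 := Nat.mod_lt _ (by norm_num)

/-- A matrix from a code. -/
def mOf (x : ℕ) : Matrix (Fin 5) (Fin 5) (ZMod 2) := Matrix.of fun r c => vecF (field c.val x) r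

/-- A key of a code. -/
def cdKey (x : ℕ) : ℕ :=
  field 0 x + 32 * field 1 x + 1024 * field 2 x + 32768 * field 3 x + 1048576 * field 4 x

theorem mOf_key {x y : ℕ} (h : mOf x = mOf y) : cdKey x = cdKey y := by
  have key : ∀ c : Fin 5, field c.val x = field c.val y := by
    intro c
    apply vecF_inj (field_lt _ _) (field_lt _ _)
    funext r
    exact congrFun (congrFun h r) c
  show field 0 x + 32 * field 1 x + 1024 * field 2 x + 32768 * field 3 x + 1048576 * field 4 x =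
    field 0 y + 32 * field 1 y + 1024 * field 2 y + 32768 * field 3 y + 1048576 * field 4 y
  have k0 : field 0 x = field 0 y := key 0
  have k1 : field 1 x = field 1 y := key 1
  have k2 : field 2 x = field 2 y := key 2
  have k3 : field 3 x = field 3 y := key 3
  have k4 : field 4 x = field 4 y := key 4
  rw [k0, k1, k2, k3, k4]

theorem mat_step (g : SL(5, ZMod 2)) (T : ℕ → ℕ)
    (hT : ∀ y, y < 32 → (g : Matrix (Fin 5) (Fin 5) (ZMod 2)) *ᵥ vecF y = vecF (T y)) {x x' : ℕ}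
    (h : ∀ c : Fin 5, T (field c.val x) = field c.val x') :
    (g : Matrix (Fin 5) (Fin 5) (ZMod 2)) * mOf x = mOf x' := by
  ext r c
  have h1 := congrFun (hT _ (field_lt c.val x)) r
  rw [h c] at h1
  exact h1

end Cfsg.Agent.Lib.KnownSimple.HeCent
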