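/-
The Held group has an involution whose centraliser is isomorphic to the centraliser of a transvection of `SL(5, 2)`.
-/
import Cfsg.Agent.Lib.KnownSimple.HeCent.Bound
import Cfsg.Agent.Lib.KnownSimple.HeCent.Side

set_option autoImplicit false
set_option maxRecDepth 100000

namespace Cfsg.Agent.Lib.KnownSimple.HeCent

open Cfsg Cfsg.Spor Cfsg.Agent.Lib.Compute Cfsg.Agent.Lib.KnownSimple.PE Cfsg.Agent.Lib.KnownSimple.Leech
open Cfsg.Agent.Lib.KnownSimple Cfsg.Agent.Lib.KnownSimple.AutRigid Cfsg.Agent.Lib.KnownSimple.Pres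
open Cfsg.Agent.Lib.KnownSimple.HeP
open Matrix
open scoped MatrixGroups

/-- The order of the centralisers. -/
abbrev nn : ℕ := 21504

/-! ### Generators of the centraliser -/

/-- A generator of the centraliser. -/
noncomputable def g0 : G := wdG Sw0
/-- A generator of the centraliser. -/
noncomputable def g1 : G := wdG Sw1
/-- A generator of the centraliser. -/
noncomputable def g2 : G := wdG Sw2

theorem code_g0 : E.IsCode ((g0 : G) : Equiv.Perm (Fin N)) (pc gT0) := code_tab _ _ (by decide +kernel)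
theorem code_g1 : E.IsCode ((g1 : G) : Equiv.Perm (Fin N)) (pc gT1) := code_tab _ _ (by decide +kernel)
theorem code_g2 : E.IsCode ((g2 : G) : Equiv.Perm (Fin N)) (pc gT2) := code_tab _ _ (by decide +kernel)

theorem g0_comm : zz * g0 = g0 * zz :=
  eq_of_chk based2 lt2 (coe_code_mul code_zz code_g0) (coe_code_mul code_g0 code_zz) (by decide +kernel)
theorem g1_comm : zz * g1 = g1 * zz :=
  eq_of_chk based2 lt2 (coe_code_mul code_zz code_g1) (coe_code_mul code_g1 code_zz) (by decide +kernel)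
theorem g2_comm : zz * g2 = g2 * zz :=
  eq_of_chk based2 lt2 (coe_code_mul code_zz code_g2) (coe_code_mul code_g2 code_zz) (by decide +kernel)

/-- The generators, as a family. -/
noncomputable def S₁ : Fin 3 → G := ![g0, g1, g2]

/-- The codes of the generators. -/
noncomputable def gC : ℕ → ℕ → ℕ := lgetD (fun i => i) [pc gT0, pc gT1, pc gT2]

theorem code_S₁ (k : Fin 3) : E.IsCode ((S₁ k : G) : Equiv.Perm (Fin N)) (gC k) := by
  match k with
  | ⟨0, _⟩ => exact code_g0
  | ⟨1, _⟩ => exact code_g1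
  | ⟨2, _⟩ => exact code_g2

theorem S₁_comm (k : Fin 3) : S₁ k ∈ Subgroup.centralizer ({zz} : Set G) := by
  rw [Subgroup.mem_centralizer_iff]
  rintro _ rfl
  match k with
  | ⟨0, _⟩ => exact g0_comm
  | ⟨1, _⟩ => exact g1_comm
  | ⟨2, _⟩ => exact g2_comm

/-! ### Tables -/

/-- The first label. -/
noncomputable def PP (i : ℕ) : ℕ := pget 12 4095 PT i
/-- The second label. -/
noncomputable def QQ (i : ℕ) : ℕ := pget 12 4095 QT i
/-- The code of a matrix. -/
noncomputable def cdF (i : ℕ) : ℕ := pget 25 33554431 cdT i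
/-- The action on the labels. -/
noncomputable def tauN (k i : ℕ) : ℕ := pget 15 32767 (lgetD 0 [tauT0, tauT1, tauT2] k) i
/-- The parent. -/
noncomputable def parF (i : ℕ) : ℕ := pget 15 32767 parT i
/-- The letter. -/
noncomputable def letF (i : ℕ) : ℕ := pget 2 3 letT i

theorem lab_lt : allBelow (fun i => Nat.blt (PP i) N && Nat.blt (QQ i) N) nn = true := by decide +kernel
theorem PP_lt {i : ℕ} (hi : i < nn) : PP i < N := by
  have h := (allBelow_iff _ _).1 lab_lt i hi
  exact Nat.le_of_ble_eq_true (Bool.and_eq_true _ _ ▸ h).1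
theorem QQ_lt {i : ℕ} (hi : i < nn) : QQ i < N := by
  have h := (allBelow_iff _ _).1 lab_lt i hi
  exact Nat.le_of_ble_eq_true (Bool.and_eq_true _ _ ▸ h).2

/-- The check of the tables on the group side. -/
noncomputable def chkG (k i : ℕ) : Bool :=
  Nat.blt (tauN k i) nn && (Nat.beq (gC k (PP i)) (PP (tauN k i)) && Nat.beq (gC k (QQ i)) (QQ (tauN k i)))

theorem tabG0 : allBelow (chkG 0) nn = true := by decide +kernel
theorem tabG1 : allBelow (chkG 1) nn = true := by decide +kernel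
theorem tabG2 : allBelow (chkG 2) nn = true := by decide +kernel

theorem chkG_all (k : Fin 3) {i : ℕ} (hi : i < nn) : chkG k i = true := by
  match k with
  | ⟨0, _⟩ => exact (allBelow_iff _ _).1 tabG0 i hi
  | ⟨1, _⟩ => exact (allBelow_iff _ _).1 tabG1 i hi
  | ⟨2, _⟩ => exact (allBelow_iff _ _).1 tabG2 i hi

theorem tau_lt (k : Fin 3) {i : ℕ} (hi : i < nn) : tauN k i < nn := by
  have h := chkG_all k hi
  simp only [chkG, Bool.and_eq_true] at h
  exact Nat.le_of_ble_eq_true h.1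

/-- The action on the labels, as a map. -/
noncomputable def τ (k : Fin 3) (i : Fin nn) : Fin nn := ⟨tauN k i, tau_lt k i.2⟩

/-! ### The group side -/

/-- The action on pairs of points. -/
noncomputable def pairAct : Equiv.Perm (Fin N) →* Equiv.Perm (Fin N × Fin N) where
  toFun σ := Equiv.prodCongr σ σ
  map_one' := rfl
  map_mul' _ _ := rfl

/-- The action of the group on pairs of points. -/
noncomputable def act₁ : G →* Equiv.Perm (Fin N × Fin N) := pairAct.comp H.subtype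

/-- The labels. -/
noncomputable def vec₁ (i : Fin nn) : Fin N × Fin N := (E.pt (PP i), E.pt (QQ i))

theorem ht₁ (k : Fin 3) (i : Fin nn) : act₁ (S₁ k) (vec₁ i) = vec₁ (τ k i) := by
  have h := chkG_all k i.2
  simp only [chkG, Bool.and_eq_true] at h
  obtain ⟨_, h1, h2⟩ := h
  refine Prod.ext ?_ ?_
  · show ((S₁ k : G) : Equiv.Perm (Fin N)) (E.pt (PP i)) = E.pt (PP (tauN k i))
    rw [apply_pt (code_S₁ k) (PP_lt i.2), Nat.eq_of_beq_eq_true h1]
  · show ((S₁ k : G) : Equiv.Perm (Fin N)) (E.pt (QQ i)) = E.pt (QQ (tauN k i))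
    rw [apply_pt (code_S₁ k) (QQ_lt i.2), Nat.eq_of_beq_eq_true h2]

/-- Sorting the labels. -/
noncomputable def ordG (i : ℕ) : ℕ := pget 15 32767 ordGT i
/-- The inverse. -/
noncomputable def ordGi (i : ℕ) : ℕ := pget 15 32767 ordGI i
/-- The key of a label. -/
noncomputable def keyG (i : ℕ) : ℕ := PP i * 2058 + QQ i

theorem ordG1 : allBelow (fun i => Nat.blt (ordGi i) nn && Nat.beq (ordG (ordGi i)) i) nn = true := by decide +kernel
theorem ordG2 : allBelow (fun i => Nat.blt (keyG (ordG i)) (keyG (ordG (i + 1)))) (nn - 1) = true := by decide +kernel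

theorem keyG_inj {a b : ℕ} (ha : a < nn) (hb : b < nn) (hab : keyG a = keyG b) : a = b :=
  inj_of_ord (ord := ordG) (ordI := ordGi) (n := nn)
    (fun i hi => by
      have h := (allBelow_iff _ _).1 ordG1 i hi
      simp only [Bool.and_eq_true] at h
      exact ⟨Nat.le_of_ble_eq_true h.1, Nat.eq_of_beq_eq_true h.2⟩)
    (fun i hi => Nat.le_of_ble_eq_true ((allBelow_iff _ _).1 ordG2 i (by omega))) ha hb hab

theorem inj₁ : Function.Injective vec₁ := by
  intro i j hij
  have h1 : E.pt (PP i) = E.pt (PP j) := congrArg Prod.fst hij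
  have h2 : E.pt (QQ i) = E.pt (QQ j) := congrArg Prod.snd hij
  have h3 : PP i = PP j := by
    have := congrArg E.idx h1
    rwa [E.idx_pt _ (PP_lt i.2), E.idx_pt _ (PP_lt j.2)] at this
  have h4 : QQ i = QQ j := by
    have := congrArg E.idx h2
    rwa [E.idx_pt _ (QQ_lt i.2), E.idx_pt _ (QQ_lt j.2)] at this
  apply Fin.ext
  apply keyG_inj i.2 j.2
  show PP i * 2058 + QQ i = PP j * 2058 + QQ j
  rw [h3, h4]

/-! ### The tree -/

/-- The parent. -/
noncomputable def par (i : Fin nn) : Fin nn :=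
  ⟨parF i % nn, Nat.mod_lt _ (by norm_num)⟩
/-- The letter. -/
noncomputable def lt3 (i : Fin nn) : Fin 3 := ⟨letF i % 3, Nat.mod_lt _ (by norm_num)⟩

theorem tree_chk : allBelow (fun i => Nat.beq i 0 ||
    (Nat.blt (parF i) i && Nat.beq (tauN (letF i % 3) (parF i)) i)) nn = true := by decide +kernel

theorem htree (i : Fin nn) (hi : i.val ≠ 0) : (par i).val < i.val ∧ τ (lt3 i) (par i) = i := by
  have h := (allBelow_iff _ _).1 tree_chk i i.2
  simp only [Bool.or_eq_true, Bool.and_eq_true] at h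
  rcases h with h | ⟨h1, h2⟩
  · exact absurd (Nat.eq_of_beq_eq_true h) hi
  · have h3 : parF i < i := Nat.le_of_ble_eq_true h1
    have h4 : parF i % nn = parF i := Nat.mod_eq_of_lt (h3.trans i.2)
    have h5 : (par i).val = parF i := h4
    refine ⟨by rw [h5]; exact h3, Fin.ext ?_⟩
    show tauN (letF i % 3) (par i).val = i
    rw [h5]
    exact Nat.eq_of_beq_eq_true h2

/-! ### The matrix side -/

/-- A generator. -/
def mat0 : Matrix (Fin 5) (Fin 5) (ZMod 2) := !![1, 1, 0, 1, 0; 0, 1, 0, 0, 0; 0, 1, 0, 0, 1; 0, 0, 0, 1, 0; 0, 1, 1, 0, 0]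
/-- A generator. -/
def mat1 : Matrix (Fin 5) (Fin 5) (ZMod 2) := !![1, 0, 0, 0, 1; 0, 1, 0, 0, 0; 0, 0, 1, 1, 1; 0, 0, 0, 1, 0; 0, 0, 0, 1, 1]
/-- A generator. -/
def mat2 : Matrix (Fin 5) (Fin 5) (ZMod 2) := !![1, 1, 1, 0, 1; 0, 1, 0, 0, 0; 0, 1, 0, 0, 1; 0, 0, 1, 0, 0; 0, 1, 0, 1, 1]

/-- A generator. -/
def m0 : SL(5, ZMod 2) := ⟨mat0, by decide +kernel⟩
/-- A generator. -/
def m1 : SL(5, ZMod 2) := ⟨mat1, by decide +kernel⟩
/-- A generator. -/
def m2 : SL(5, ZMod 2) := ⟨mat2, by decide +kernel⟩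

/-- The generators, as a family. -/
def S₂ : Fin 3 → SL(5, ZMod 2) := ![m0, m1, m2]

theorem m0_comm : s₀ * m0 = m0 * s₀ := Subtype.ext (by decide +kernel)
theorem m1_comm : s₀ * m1 = m1 * s₀ := Subtype.ext (by decide +kernel)
theorem m2_comm : s₀ * m2 = m2 * s₀ := Subtype.ext (by decide +kernel)

theorem S₂_comm (k : Fin 3) : S₂ k ∈ Subgroup.centralizer ({s₀} : Set SL(5, ZMod 2)) := by
  rw [Subgroup.mem_centralizer_iff]
  rintro _ rfl
  match k with
  | ⟨0, _⟩ => exact m0_comm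
  | ⟨1, _⟩ => exact m1_comm
  | ⟨2, _⟩ => exact m2_comm

/-- The tables of the matrices on vectors. -/
noncomputable def mC (k y : ℕ) : ℕ := pget 5 31 (lgetD 0 [mT0, mT1, mT2] k) y

theorem specM0 : ∀ y : Fin 32, mat0 *ᵥ vecF y = vecF (mC 0 y) := by decide +kernel
theorem specM1 : ∀ y : Fin 32, mat1 *ᵥ vecF y = vecF (mC 1 y) := by decide +kernel
theorem specM2 : ∀ y : Fin 32, mat2 *ᵥ vecF y = vecF (mC 2 y) := by decide +kernel

theorem specM (k : Fin 3) (y : ℕ) (hy : y < 32) :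
    ((S₂ k : SL(5, ZMod 2)) : Matrix (Fin 5) (Fin 5) (ZMod 2)) *ᵥ vecF y = vecF (mC k y) := by
  match k with
  | ⟨0, _⟩ => exact specM0 ⟨y, hy⟩
  | ⟨1, _⟩ => exact specM1 ⟨y, hy⟩
  | ⟨2, _⟩ => exact specM2 ⟨y, hy⟩

/-- The check of the tables on the matrix side. -/
noncomputable def chkM (k i : ℕ) : Bool :=
  Nat.beq (mC k (field 0 (cdF i))) (field 0 (cdF (tauN k i))) &&
  (Nat.beq (mC k (field 1 (cdF i))) (field 1 (cdF (tauN k i))) &&
  (Nat.beq (mC k (field 2 (cdF i))) (field 2 (cdF (tauN k i))) &&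
  (Nat.beq (mC k (field 3 (cdF i))) (field 3 (cdF (tauN k i))) &&
  Nat.beq (mC k (field 4 (cdF i))) (field 4 (cdF (tauN k i))))))

theorem tabM0 : allBelow (chkM 0) nn = true := by decide +kernel
theorem tabM1 : allBelow (chkM 1) nn = true := by decide +kernel
theorem tabM2 : allBelow (chkM 2) nn = true := by decide +kernel

theorem chkM_all (k : Fin 3) {i : ℕ} (hi : i < nn) : chkM k i = true := by
  match k with
  | ⟨0, _⟩ => exact (allBelow_iff _ _).1 tabM0 i hi
  | ⟨1, _⟩ => exact (allBelow_iff _ _).1 tabM1 i hi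
  | ⟨2, _⟩ => exact (allBelow_iff _ _).1 tabM2 i hi

/-- The labels on the matrix side. -/
noncomputable def vec₂ (i : Fin nn) : Matrix (Fin 5) (Fin 5) (ZMod 2) := mOf (cdF i)

theorem ht₂ (k : Fin 3) (i : Fin nn) : leftAct (S₂ k) (vec₂ i) = vec₂ (τ k i) := by
  have h := chkM_all k i.2
  simp only [chkM, Bool.and_eq_true] at h
  obtain ⟨h0, h1, h2, h3, h4⟩ := h
  rw [leftAct_apply]
  refine mat_step (S₂ k) (mC k) (specM k) fun c => ?_
  match c with
  | ⟨0, _⟩ => exact Nat.eq_of_beq_eq_true h0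
  | ⟨1, _⟩ => exact Nat.eq_of_beq_eq_true h1
  | ⟨2, _⟩ => exact Nat.eq_of_beq_eq_true h2
  | ⟨3, _⟩ => exact Nat.eq_of_beq_eq_true h3
  | ⟨4, _⟩ => exact Nat.eq_of_beq_eq_true h4

/-- Sorting the matrices. -/
noncomputable def ordD (i : ℕ) : ℕ := pget 15 32767 ordDT i
/-- The inverse. -/
noncomputable def ordDi (i : ℕ) : ℕ := pget 15 32767 ordDI i

theorem ordD1 : allBelow (fun i => Nat.blt (ordDi i) nn && Nat.beq (ordD (ordDi i)) i) nn = true := by decide +kernel
theorem ordD2 : allBelow (fun i => Nat.blt (cdKey (cdF (ordD i))) (cdKey (cdF (ordD (i + 1))))) (nn - 1) = true := by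
  decide +kernel

theorem inj₂ : Function.Injective vec₂ := by
  intro i j hij
  apply Fin.ext
  exact inj_of_ord (k := fun a => cdKey (cdF a)) (ord := ordD) (ordI := ordDi) (n := nn)
    (fun i hi => by
      have h := (allBelow_iff _ _).1 ordD1 i hi
      simp only [Bool.and_eq_true] at h
      exact ⟨Nat.le_of_ble_eq_true h.1, Nat.eq_of_beq_eq_true h.2⟩)
    (fun i hi => Nat.le_of_ble_eq_true ((allBelow_iff _ _).1 ordD2 i (by omega))) i.2 j.2 (mOf_key hij)

/-! ### The isomorphism -/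

theorem le₁ : Subgroup.closure (Set.range S₁) ≤ Subgroup.centralizer ({zz} : Set G) := by
  rw [Subgroup.closure_le]
  rintro _ ⟨k, rfl⟩
  exact S₁_comm k

theorem le₂ : Subgroup.closure (Set.range S₂) ≤ Subgroup.centralizer ({s₀} : Set SL(5, ZMod 2)) := by
  rw [Subgroup.closure_le]
  rintro _ ⟨k, rfl⟩
  exact S₂_comm k

theorem main_G : Nonempty (↥(Subgroup.centralizer ({zz} : Set G)) ≃*
    ↥(Subgroup.centralizer ({s₀} : Set SL(5, ZMod 2)))) := by
  have hc₁ : Nat.card (Subgroup.closure (Set.range S₁)) ≤ nn :=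
    (Subgroup.card_le_of_le le₁).trans card_C_le
  have hc₂ : Nat.card (Subgroup.closure (Set.range S₂)) ≤ nn :=
    (Subgroup.card_le_of_le le₂).trans card_CS_le
  obtain ⟨⟨m⟩, h₁, h₂⟩ := iso_of_tables act₁ leftAct (n := nn) (by norm_num) vec₁ vec₂ inj₁ inj₂ S₁ S₂ τ ht₁ ht₂
    par lt3 htree hc₁ hc₂
  have e₁ : Subgroup.closure (Set.range S₁) = Subgroup.centralizer ({zz} : Set G) :=
    Subgroup.eq_of_le_of_card_ge le₁ (card_C_le.trans h₁)
  have e₂ : Subgroup.closure (Set.range S₂) = Subgroup.centralizer ({s₀} : Set SL(5, ZMod 2)) :=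
    Subgroup.eq_of_le_of_card_ge le₂ (card_CS_le.trans h₂)
  exact ⟨(MulEquiv.subgroupCongr e₁.symm).trans (m.trans (MulEquiv.subgroupCongr e₂))⟩

theorem main : ∃ z : Spor.He, orderOf z = 2 ∧
    Nonempty (↥(Subgroup.centralizer ({z} : Set Spor.He)) ≃* ↥(Subgroup.centralizer ({s₀} : Set SL(5, ZMod 2)))) :=
  transport (equivRange φ hinj) zz orderOf_zz main_G

end Cfsg.Agent.Lib.KnownSimple.HeCent
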